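import Cfsg.Agent.H328.Ext.Psu
import Cfsg.Agent.H163.PG.Ord

/-!
# S4832, rows `PSU_n(q)`, `n ≥ 4`: assembly (helper328)
-/

set_option autoImplicit false
set_option linter.unusedSectionVars false

open scoped ComplexConjugate
open Cfsg

namespace Cfsg.Agent.H328.Ext

open Cfsg.Agent.H576.Ext Cfsg.Agent.H113.PSU.Levi Cfsg.Agent.H113.PSU.Facts

universe u

variable {K : Type u} [Field K] [Fintype K] {q n : ℕ}

theorem sylCyc_two (hF : Fintype.card K = 2 ^ 2) (hn : 4 ≤ n) : SylCyc (PSU n K 2) := by
  apply sylCyc_of_squarefree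
  rw [Cfsg.Agent.H163.PG.card_out_psu Nat.prime_two le_rfl (by norm_num) hF (by omega) (by omega)
    (center_psu hF hn)]
  have h1 : Nat.gcd n (2 + 1) = 1 ∨ Nat.gcd n (2 + 1) = 3 := by
    have h2 := Nat.gcd_dvd_right n (2 + 1)
    exact (Nat.dvd_prime Nat.prime_three).1 h2
  rcases h1 with h1 | h1 <;> rw [h1]
  · exact Nat.prime_two.squarefree
  · norm_num
    rw [show 6 = 2 * 3 by norm_num, Nat.squarefree_mul_iff]
    exact ⟨by norm_num, Nat.prime_two.squarefree, Nat.prime_three.squarefree⟩

theorem sylCyc_five (hF : Fintype.card K = 3 ^ 2) : SylCyc (PSU 5 K 3) := by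
  apply sylCyc_of_squarefree
  rw [Cfsg.Agent.H163.PG.card_out_psu Nat.prime_three le_rfl (by norm_num) hF (by omega) (by omega)
    (center_psu hF (by omega))]
  norm_num
  exact Nat.prime_two.squarefree

/-- the rank 3 characters extend -/
def Rk3PSU (K : Type u) [Field K] [Fintype K] (q n : ℕ) : Prop :=
  (∀ f p : ℕ, p.Prime → (q ^ 2 - 1) * (q + 1) * f = q ^ 2 * uu q n * uu q (n - 3) → p ∣ f → HasExt p (PSU n K q)) ∧
  ∀ g p : ℕ, p.Prime → (q ^ 2 - 1) * (q + 1) * g = q ^ 3 * uu q (n - 1) * uu q (n - 2) → p ∣ g → HasExt p (PSU n K q)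

/-- **the rows `PSU_n(q)`, `n ≥ 4`** -/
theorem row_psu_of (hF : Fintype.card K = q ^ 2) (hn : 4 ≤ n) (hR : Rk3PSU K q n) {p : ℕ} (hp : p.Prime)
    (hpq : ¬ p ∣ q) (hd : p ∣ Nat.card (PSU n K q)) : HasExt p (PSU n K q) := by
  have hq2 := LieClassical.HermBasic.two_le hF
  have hfree : SylCyc (PSU n K q) → HasExt p (PSU n K q) := by
    intro h
    have := simple_psu hF hn
    exact hasExt_of_sylCyc (not_comm_psu hF hn) h (im hF hn hp hd)
  rcases cover hF hn hp hd with h | ⟨i, hi, hpi⟩ | ⟨h1, h2⟩
  · exact absurd h hpq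
  · by_cases h2 : q = 2
    · subst h2
      exact hfree (sylCyc_two hF hn)
    by_cases h6 : 6 ≤ n
    · rcases Nat.even_or_odd' n with ⟨k, hk | hk⟩
      · have h7 : n = k + (k + 0) := by omega
        subst h7
        exact ext_big hF (by omega) (by omega) (by omega) hp hi hpi
      · have h7 : n = k + (k + 1) := by omega
        subst h7
        exact ext_big hF (by omega) (by omega) le_rfl hp hi hpi
    · rcases (show n = 2 + (2 + 0) ∨ n = 2 + (2 + 1) by omega) with rfl | rfl
      · by_cases h3 : q = 3
        · subst h3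
          have h8 := idx_le (n := 2 + (2 + 0)) (by norm_num) hi
          have h9 : i ≠ 4 := by
            rintro rfl
            revert hi
            decide
          have h10 : i = 1 ∨ i = 2 ∨ i = 3 := by omega
          have h11 : p = 2 ∨ p = 7 := by
            rcases h10 with rfl | rfl | rfl
            · left
              have h12 : uu 3 1 = 2 ^ 2 := by decide
              rw [h12] at hpi
              exact (Nat.prime_dvd_prime_iff_eq hp Nat.prime_two).1 (hp.dvd_of_dvd_pow hpi)
            · left
              have h12 : uu 3 2 = 2 ^ 3 := by decide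
              rw [h12] at hpi
              exact (Nat.prime_dvd_prime_iff_eq hp Nat.prime_two).1 (hp.dvd_of_dvd_pow hpi)
            · have h12 : uu 3 3 = 2 ^ 2 * 7 := by decide
              rw [h12] at hpi
              rcases hp.dvd_mul.1 hpi with h13 | h13
              · exact Or.inl ((Nat.prime_dvd_prime_iff_eq hp Nat.prime_two).1 (hp.dvd_of_dvd_pow h13))
              · exact Or.inr ((Nat.prime_dvd_prime_iff_eq hp (by norm_num)).1 h13)
          rcases h11 with rfl | rfl
          · exact hR.1 90 2 hp (by decide) (by norm_num)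
          · exact hR.2 189 7 hp (by decide) (by norm_num)
        · exact ext_small hF (by omega) (by omega) hp hi hpi
      · by_cases h3 : q = 3
        · subst h3
          exact hfree (sylCyc_five hF)
        · exact ext_small hF (by omega) le_rfl hp hi hpi
  · by_cases h : Even n
    · obtain ⟨x, hx⟩ := exists_x (q := q) (by omega) h
      obtain ⟨w, hw⟩ := exists_w (q := q) (by omega) (n - 3)
      refine hR.1 (q ^ 2 * x * w) p hp (by rw [hx, hw]; ring) ?_
      unfold exn at h2
      rw [if_pos h, hx] at h2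
      exact (((hp.dvd_mul.1 h2).resolve_left h1).mul_left _).mul_right _
    · have hodd := Nat.not_even_iff_odd.1 h
      have h3 : Even (n - 1) := by
        obtain ⟨k, hk⟩ := hodd; exact ⟨k, by omega⟩
      obtain ⟨x, hx⟩ := exists_x (q := q) (by omega) h3
      obtain ⟨w, hw⟩ := exists_w (q := q) (by omega) (n - 2)
      refine hR.2 (q ^ 3 * x * w) p hp (by rw [hx, hw]; ring) ?_
      unfold exn at h2
      rw [if_neg h, hx] at h2
      exact (((hp.dvd_mul.1 h2).resolve_left h1).mul_left _).mul_right _

end Cfsg.Agent.H328.Ext
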